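import Groth.Agent.Fdesc.LocGen
import Groth.Agent.CohqA.H1Lift
import Groth.Agent.CohqB.FiniteType

/-!
# Finite generation of a module over an open from finitely many sections which generate locally

`hasFinGen_restrict_of_span`: if every section of `M` over an open `V ≤ U` is, near every point, a combination
of the restrictions of the finitely many sections `t k` of `M` over `U`, then `M|_U` is generated by finitely many
global sections.
-/

set_option autoImplicit false
universe u

open CategoryTheory CategoryTheory.Limits AlgebraicGeometry Opposite TopologicalSpace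
open Groth.Agent.Fdesc.LocGen

namespace Groth.Agent.Ega2.H271.FinGenSpan

variable {X : Scheme.{u}}

/-- Restriction of a combination of sections. -/
theorem res_mem_span (M : X.Modules) {U V : X.Opens} (h : V ≤ U) {S : Set Γ(M, U)} {s : Γ(M, U)}
    (hs : s ∈ Submodule.span Γ(X, U) S) : res M h s ∈ Submodule.span Γ(X, V) (res M h '' S) := by
  induction hs using Submodule.span_induction with
  | mem x hx => exact Submodule.subset_span ⟨x, hx, rfl⟩
  | zero => rw [map_zero]; exact zero_mem _
  | add x y _ _ hx hy => rw [map_add]; exact add_mem hx hy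
  | smul a x _ hx => rw [res_smul]; exact Submodule.smul_mem _ _ hx

theorem hasFinGen_of_free {M : X.Modules} (I : Type u) [Finite I]
    (π : @Quiver.Hom X.Modules _ (SheafOfModules.free (R := X.ringCatSheaf) I) M) (hπ : Epi π) :
    CohqB.FiniteType.HasFinGen M := by
  refine ⟨{ I := I, s := SheafOfModules.freeHomEquiv M π, epi := ?_ }, ⟨‹Finite I›⟩⟩
  rw [Equiv.symm_apply_apply]
  exact hπ

/-- A module is generated by finitely many global sections which generate it locally. -/
theorem hasFinGen_of_span {M : X.Modules} {κ : Type u} [Finite κ] (t : κ → Γ(M, ⊤))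
    (h : ∀ (V : X.Opens) (s : Γ(M, V)), ∀ x ∈ V, ∃ (W : X.Opens) (hW : W ≤ V), x ∈ W ∧
      res M hW s ∈ Submodule.span Γ(X, W) (Set.range fun k => res M (le_top : W ≤ ⊤) (t k))) :
    CohqB.FiniteType.HasFinGen M := by
  let π : (∐ fun _ : κ => Coh.structureModule X) ⟶ M := Sigma.desc (fun k => homOf (t k))
  have hloc : CohqA.H1Lift.LocSurj π := by
    intro V s x hx
    obtain ⟨W, hW, hxW, hs⟩ := h V s x hx
    have key : ∀ y ∈ Submodule.span Γ(X, W) (Set.range fun k => res M (le_top : W ≤ ⊤) (t k)),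
        ∃ z, π.app W z = y := by
      intro y hy
      induction hy using Submodule.span_induction with
      | mem x hx =>
        obtain ⟨k, rfl⟩ := hx
        refine ⟨(Sigma.ι (fun _ : κ => Coh.structureModule X) k).app W (one W), ?_⟩
        have h1 : sec (Sigma.ι (fun _ : κ => Coh.structureModule X) k ≫ π) W = res M le_top (t k) := by
          rw [Sigma.ι_desc, sec_homOf]
        exact h1
      | zero => exact ⟨0, map_zero _⟩
      | add a b _ _ ha hb =>
        obtain ⟨a', rfl⟩ := ha
        obtain ⟨b', rfl⟩ := hb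
        exact ⟨a' + b', map_add _ _ _⟩
      | smul r a _ ha =>
        obtain ⟨a', rfl⟩ := ha
        exact ⟨r • a', Scheme.Modules.Hom.app_smul _ _ _⟩
    obtain ⟨z, hz⟩ := key _ hs
    exact ⟨W, hW, z, hxW, hz⟩
  have hepi : Epi π := by
    have := CohqA.H1Lift.epi_toAb_of_locSurj π hloc
    exact (CohqA.H1Lift.toAbF X).epi_of_epi_map this
  exact hasFinGen_of_free κ π hepi

/-- The same over an open `U`. -/
theorem hasFinGen_restrict_of_span {M : X.Modules} (U : X.Opens) {κ : Type u} [Finite κ] (t : κ → Γ(M, U))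
    (h : ∀ (V : X.Opens) (hV : V ≤ U) (s : Γ(M, V)), ∀ x ∈ V, ∃ (W : X.Opens) (hW : W ≤ V), x ∈ W ∧
      res M hW s ∈ Submodule.span Γ(X, W) (Set.range fun k => res M (hW.trans hV) (t k))) :
    CohqB.FiniteType.HasFinGen (M.restrict U.ι) := by
  have hU : U.ι ''ᵁ ⊤ ≤ U := by simp
  refine hasFinGen_of_span (fun k => toRestrict U.ι (res M hU (t k))) fun V s x hx => ?_
  have hVU : U.ι ''ᵁ V ≤ U := (U.ι.image_mono (le_top : V ≤ ⊤)).trans hU
  obtain ⟨W, hW, hxW, hs⟩ := h (U.ι ''ᵁ V) hVU ((toRestrict U.ι).symm s) x.1 ⟨x, hx, rfl⟩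
  have hle : U.ι ⁻¹ᵁ W ≤ V := by
    intro y hy
    obtain ⟨z, hz, hzy⟩ := hW hy
    have : z = y := U.ι.isOpenEmbedding.injective hzy
    exact this ▸ hz
  have hle' : U.ι ''ᵁ (U.ι ⁻¹ᵁ W) ≤ W := by
    rintro _ ⟨z, hz, rfl⟩
    exact hz
  refine ⟨U.ι ⁻¹ᵁ W, hle, hxW, ?_⟩
  have h2 := res_mem_span M hle' hs
  rw [res_res, ← Set.range_comp] at h2
  have h3 : res (M.restrict U.ι) hle s =
      toRestrict U.ι (res M (hle'.trans hW) ((toRestrict U.ι).symm s)) := by
    exact res_toRestrict U.ι hle ((toRestrict U.ι).symm s)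
  rw [h3]
  clear h3
  generalize res M (hle'.trans hW) ((toRestrict U.ι).symm s) = y at h2 ⊢
  induction h2 using Submodule.span_induction with
  | mem x hx =>
    obtain ⟨k, rfl⟩ := hx
    refine Submodule.subset_span ⟨k, ?_⟩
    dsimp only [Function.comp_apply]
    rw [res_res]
    change toRestrict U.ι (res M _ (res M hU (t k))) = _
    rw [res_res]
  | zero => rw [map_zero]; exact zero_mem _
  | add x y _ _ hx hy => rw [map_add]; exact add_mem hx hy
  | smul a x _ hx => rw [toRestrict_smul]; exact Submodule.smul_mem _ _ hx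

/-- Pointwise criterion for finite type: near every point there are finitely many sections that generate locally. -/
theorem isFT_of_forall_exists_span (M : X.Modules)
    (H : ∀ x : X, ∃ (U : X.Opens) (κ : Type u) (_ : Finite κ) (t : κ → Γ(M, U)), x ∈ U ∧
      ∀ (V : X.Opens) (hV : V ≤ U) (s : Γ(M, V)), ∀ x ∈ V, ∃ (W : X.Opens) (hW : W ≤ V), x ∈ W ∧
      res M hW s ∈ Submodule.span Γ(X, W) (Set.range fun k => res M (hW.trans hV) (t k))) :
    CohqB.FiniteType.IsFT M := by
  rw [CohqB.FiniteType.isFT_iff_hasFinGen]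
  intro x
  obtain ⟨U, κ, _, t, hx, h⟩ := H x
  exact ⟨U, hx, hasFinGen_restrict_of_span U t h⟩

end Groth.Agent.Ega2.H271.FinGenSpan
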