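import Groth.Agent.FormalB.GrTildeSect
import Mathlib.RingTheory.GradedAlgebra.Homogeneous.Ideal
import Mathlib.RingTheory.Finiteness.Ideal
import Mathlib.RingTheory.Finiteness.Basic

/-!
# Graded pieces of finitely generated graded modules

Let `A` be a graded ring whose irrelevant ideal is generated by finitely many homogeneous elements `t i` of positive
degree, and `M` a graded module some tail of which is spanned by finitely many homogeneous elements.
* `gr_ring_fg`: every `𝒜 k` is finitely generated over `𝒜 0`;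
* `gr_fg`: `ℳ k` is finitely generated over `𝒜 0` for `k ≥ n`;
* `exists_tail`: for `k` large, every element of `ℳ k` is of the form `∑ t i ^ d • c i` with `c i` homogeneous.
-/

set_option autoImplicit false
set_option linter.unusedSectionVars false
universe u v w

open Groth.Agent.FormalB.GrTildeSect

namespace Groth.Agent.Ega2.H271.GradedFG

variable {R A : Type u} [CommRing R] [CommRing A] [Algebra R A] (𝒜 : ℕ → Submodule R A) [GradedAlgebra 𝒜]

section Gr

variable {M : Type v} [AddCommGroup M] [Module R M] [Module A M] (ℳ : ℕ → Submodule R M)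
  [SetLike.GradedSMul 𝒜 ℳ]

theorem smul_mem {i j : ℕ} {a : A} {m : M} (ha : a ∈ 𝒜 i) (hm : m ∈ ℳ j) : a • m ∈ ℳ (i + j) :=
  SetLike.GradedSMul.smul_mem ha hm

/-- The degree `k` part of `ℳ` as a module over the subring `𝒜 0`. -/
def gr (k : ℕ) : Submodule (SetLike.GradeZero.subring 𝒜) M where
  carrier := ℳ k
  add_mem' := add_mem
  zero_mem' := zero_mem _
  smul_mem' c m hm := by
    have h : (c : A) • m ∈ ℳ (0 + k) := smul_mem 𝒜 ℳ c.2 hm
    rwa [zero_add] at h

theorem mem_gr {k : ℕ} {m : M} : m ∈ gr 𝒜 ℳ k ↔ m ∈ ℳ k := Iff.rfl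

variable [DirectSum.Decomposition ℳ]

include 𝒜 in
theorem decompose_smul_of_lt (a : A) {i : ℕ} {m : M} (hm : m ∈ ℳ i) {k : ℕ} (hk : k < i) :
    (DirectSum.decompose ℳ (a • m) k : M) = 0 := by
  classical
  conv_lhs => rw [← DirectSum.sum_support_decompose 𝒜 a, Finset.sum_smul, DirectSum.decompose_sum]
  rw [DFinsupp.finsetSum_apply, AddSubmonoidClass.coe_finsetSum]
  refine Finset.sum_eq_zero fun j _ => ?_
  have h : (DirectSum.decompose 𝒜 a j : A) • m ∈ ℳ (j + i) := smul_mem 𝒜 ℳ (SetLike.coe_mem _) hm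
  exact DirectSum.decompose_of_mem_ne ℳ h (by omega)

theorem decompose_smul_of_le (a : A) {i : ℕ} {m : M} (hm : m ∈ ℳ i) {k : ℕ} (hk : i ≤ k) :
    (DirectSum.decompose ℳ (a • m) k : M) = (DirectSum.decompose 𝒜 a (k - i) : A) • m := by
  classical
  conv_lhs => rw [← DirectSum.sum_support_decompose 𝒜 a, Finset.sum_smul, DirectSum.decompose_sum]
  rw [DFinsupp.finsetSum_apply, AddSubmonoidClass.coe_finsetSum]
  rw [Finset.sum_eq_single (k - i)]
  · have h : (DirectSum.decompose 𝒜 a (k - i) : A) • m ∈ ℳ ((k - i) + i) :=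
      smul_mem 𝒜 ℳ (SetLike.coe_mem _) hm
    rw [Nat.sub_add_cancel hk] at h
    exact DirectSum.decompose_of_mem_same ℳ h
  · intro j _ hj
    have h : (DirectSum.decompose 𝒜 a j : A) • m ∈ ℳ (j + i) := smul_mem 𝒜 ℳ (SetLike.coe_mem _) hm
    exact DirectSum.decompose_of_mem_ne ℳ h (by omega)
  · intro hj
    rw [DFinsupp.notMem_support_iff.mp hj]
    simp

/-- A homogeneous element in the span of homogeneous elements is a homogeneous combination of them. -/
theorem exists_homog_comb {ι : Type w} (T : Finset ι) (x : ι → M) (e : ι → ℕ) (hx : ∀ i ∈ T, x i ∈ ℳ (e i))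
    {k : ℕ} {m : M} (hm : m ∈ ℳ k) (hspan : m ∈ Submodule.span A (x '' (T : Set ι))) :
    ∃ c : ι → A, (∀ i ∈ T, e i ≤ k → c i ∈ 𝒜 (k - e i)) ∧ (∀ i, ¬ e i ≤ k → c i = 0) ∧
      m = ∑ i ∈ T, c i • x i := by
  classical
  obtain ⟨c, hc⟩ : ∃ c : ι → A, m = ∑ p ∈ T, c p • x p := by
    obtain ⟨c, hc⟩ := (Submodule.mem_span_image_finset_iff_exists_fun A (s := T) (v := x) (x := m)).mp hspan
    refine ⟨fun p => if hp : p ∈ T then c ⟨p, hp⟩ else 0, ?_⟩
    rw [← hc, ← Finset.sum_attach T]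
    refine Finset.sum_congr rfl fun p _ => ?_
    simp
  refine ⟨fun p => if e p ≤ k then (DirectSum.decompose 𝒜 (c p) (k - e p) : A) else 0, ?_, ?_, ?_⟩
  · intro p _ hp
    simp only [hp, if_true]
    exact SetLike.coe_mem _
  · intro p hp
    simp only [hp, if_false]
  · have h1 : (DirectSum.decompose ℳ m k : M) = m := DirectSum.decompose_of_mem_same ℳ hm
    rw [← h1]
    conv_lhs => rw [hc]
    rw [DirectSum.decompose_sum, DFinsupp.finsetSum_apply, AddSubmonoidClass.coe_finsetSum]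
    refine Finset.sum_congr rfl fun p hpT => ?_
    by_cases hp : e p ≤ k
    · simp only [hp, if_true]
      exact decompose_smul_of_le 𝒜 ℳ (c p) (hx p hpT) hp
    · simp only [hp, if_false, zero_smul]
      exact decompose_smul_of_lt 𝒜 ℳ (c p) (hx p hpT) (by omega)

/-- The degree `k` part is finitely generated over `𝒜 0` if it is contained in the span of finitely many homogeneous
elements and the parts of `A` involved are. -/
theorem gr_fg_of_le_span {ι : Type w} (T : Finset ι) (x : ι → M) (e : ι → ℕ) (hx : ∀ i ∈ T, x i ∈ ℳ (e i))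
    {k : ℕ} (hk : ∀ m ∈ ℳ k, m ∈ Submodule.span A (x '' (T : Set ι)))
    (hA : ∀ i ∈ T, e i ≤ k → (gr 𝒜 𝒜 (k - e i)).FG) : (gr 𝒜 ℳ k).FG := by
  classical
  let S0 := SetLike.GradeZero.subring 𝒜
  let N : ι → Submodule S0 M := fun i =>
    if e i ≤ k then (gr 𝒜 𝒜 (k - e i)).map ((LinearMap.toSpanSingleton A M (x i)).restrictScalars S0) else ⊥
  have hN : ∀ i ∈ T, (N i).FG := by
    intro i hi
    simp only [N]
    split_ifs with h
    · exact (hA i hi h).map _
    · exact Submodule.fg_bot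
  have hle : ∀ i ∈ T, N i ≤ gr 𝒜 ℳ k := by
    intro i hi
    simp only [N]
    split_ifs with h
    · rintro _ ⟨a, ha, rfl⟩
      have h1 : a • x i ∈ ℳ ((k - e i) + e i) := smul_mem 𝒜 ℳ ha (hx i hi)
      rw [Nat.sub_add_cancel h] at h1
      exact h1
    · exact bot_le
  have heq : gr 𝒜 ℳ k = T.sup N := by
    apply le_antisymm
    · intro m hm
      obtain ⟨c, hc, hc0, rfl⟩ := exists_homog_comb 𝒜 ℳ T x e hx hm (hk m hm)
      refine sum_mem fun i hi => ?_
      by_cases h : e i ≤ k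
      · refine Finset.le_sup (f := N) hi ?_
        simp only [N, if_pos h]
        exact ⟨c i, hc i hi h, rfl⟩
      · rw [hc0 i h, zero_smul]
        exact zero_mem _
    · exact Finset.sup_le hle
  rw [heq]
  exact Submodule.fg_finset_sup T N hN

end Gr

section Ring

variable {ι : Type w} {T : Finset ι} {t : ι → A} {e : ι → ℕ}

/-- Every graded piece of `A` is finitely generated over `𝒜 0`. -/
theorem gr_ring_fg (ht : ∀ i ∈ T, t i ∈ 𝒜 (e i)) (he : ∀ i ∈ T, 0 < e i)
    (hT : (HomogeneousIdeal.irrelevant 𝒜).toIdeal = Ideal.span (t '' (T : Set ι))) (k : ℕ) :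
    (gr 𝒜 𝒜 k).FG := by
  induction k using Nat.strong_induction_on with
  | _ k ih =>
    rcases Nat.eq_zero_or_pos k with rfl | hk
    · refine ⟨{1}, le_antisymm ?_ ?_⟩
      · rw [Submodule.span_le]
        intro x hx
        rw [Finset.coe_singleton, Set.mem_singleton_iff] at hx
        subst hx
        exact SetLike.GradedOne.one_mem (A := 𝒜)
      · intro a ha
        have : a = (⟨a, ha⟩ : SetLike.GradeZero.subring 𝒜) • (1 : A) := (mul_one a).symm
        rw [this]
        exact Submodule.smul_mem _ _ (Submodule.subset_span (by simp))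
    · refine gr_fg_of_le_span 𝒜 𝒜 T t e ht (fun a ha => ?_) (fun i hi h => ih _ ?_)
      · have : a ∈ (HomogeneousIdeal.irrelevant 𝒜).toIdeal := HomogeneousIdeal.mem_irrelevant_of_mem 𝒜 hk ha
        rw [hT] at this
        exact this
      · have := he i hi
        omega

/-- Elements of large degree lie in powers of the irrelevant ideal. -/
theorem mem_pow_of_le (ht : ∀ i ∈ T, t i ∈ 𝒜 (e i))
    (hT : (HomogeneousIdeal.irrelevant 𝒜).toIdeal = Ideal.span (t '' (T : Set ι))) {D : ℕ} (hD : 0 < D)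
    (heD : ∀ i ∈ T, e i ≤ D) (N : ℕ) {j : ℕ} (hj : N * D ≤ j) {a : A} (ha : a ∈ 𝒜 j) :
    a ∈ (Ideal.span (t '' (T : Set ι))) ^ N := by
  induction N generalizing j a with
  | zero => simp
  | succ N ih =>
    have h1 : (N + 1) * D = N * D + D := by ring
    have hj0 : 0 < j := by omega
    have ha' : a ∈ Submodule.span A (t '' (T : Set ι)) := by
      have : a ∈ (HomogeneousIdeal.irrelevant 𝒜).toIdeal := HomogeneousIdeal.mem_irrelevant_of_mem 𝒜 hj0 ha
      rw [hT] at this
      exact this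
    obtain ⟨c, hc, hc0, rfl⟩ := exists_homog_comb 𝒜 𝒜 T t e ht ha ha'
    refine sum_mem fun i hi => ?_
    have hij : e i ≤ j := (heD i hi).trans (by omega)
    rw [smul_eq_mul, pow_succ]
    refine Ideal.mul_mem_mul (ih (j := j - e i) ?_ (hc i hi hij)) (Ideal.subset_span ⟨i, hi, rfl⟩)
    have := heD i hi
    omega

theorem exists_pow_le_span_pow (d : ℕ) :
    ∃ N : ℕ, (Ideal.span (t '' (T : Set ι))) ^ N ≤ Ideal.span ((fun i => t i ^ d) '' (T : Set ι)) := by
  refine Ideal.exists_pow_le_of_le_radical_of_fg ?_ ?_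
  · rw [Ideal.span_le]
    rintro _ ⟨i, hi, rfl⟩
    exact ⟨d, Ideal.subset_span ⟨i, hi, rfl⟩⟩
  · exact Submodule.fg_span (T.finite_toSet.image _)

end Ring

section Mod

variable {M : Type v} [AddCommGroup M] [Module R M] [Module A M] (ℳ : ℕ → Submodule R M)
  [SetLike.GradedSMul 𝒜 ℳ] [DirectSum.Decomposition ℳ]
variable {ι : Type w} {T : Finset ι} {t : ι → A} {e : ι → ℕ}
variable {κ : Type*} {T' : Finset κ} {x : κ → M} {e' : κ → ℕ}

/-- In large degree, every element of `ℳ k` is a combination of the `t i ^ d` with homogeneous coefficients in `M`. -/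
theorem exists_tail (ht : ∀ i ∈ T, t i ∈ 𝒜 (e i))
    (hT : (HomogeneousIdeal.irrelevant 𝒜).toIdeal = Ideal.span (t '' (T : Set ι)))
    (hx : ∀ i ∈ T', x i ∈ ℳ (e' i)) {n : ℕ}
    (hn : ∀ k, n ≤ k → ∀ m ∈ ℳ k, m ∈ Submodule.span A (x '' (T' : Set κ))) (d : ℕ) :
    ∃ K : ℕ, ∀ k, K ≤ k → ∀ m ∈ ℳ k, ∃ c : ι → M, (∀ i ∈ T, d * e i ≤ k ∧ c i ∈ ℳ (k - d * e i)) ∧
      m = ∑ i ∈ T, t i ^ d • c i := by
  classical
  obtain ⟨N, hN⟩ := exists_pow_le_span_pow (T := T) (t := t) d
  let D := T.sup e + 1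
  have heD : ∀ i ∈ T, e i ≤ D := fun i hi => (Finset.le_sup (f := e) hi).trans (Nat.le_succ _)
  let E := T'.sup e'
  have heE : ∀ i ∈ T', e' i ≤ E := fun i hi => Finset.le_sup (f := e') hi
  refine ⟨n + E + N * D + d * D, fun k hk m hm => ?_⟩
  obtain ⟨a, ha, ha0, rfl⟩ := exists_homog_comb 𝒜 ℳ T' x e' hx hm (hn k (by omega) m hm)
  have hdD : ∀ i ∈ T, d * e i ≤ d * D := fun i hi => Nat.mul_le_mul_left d (heD i hi)
  have h1 : ∀ j ∈ T', ∃ c : ι → A, (∀ i ∈ T, c i ∈ 𝒜 (k - e' j - d * e i)) ∧ a j = ∑ i ∈ T, c i * t i ^ d := by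
    intro j hj
    have hjE := heE j hj
    have haj := ha j hj (by omega)
    have h2 : a j ∈ Ideal.span ((fun i => t i ^ d) '' (T : Set ι)) :=
      hN (mem_pow_of_le 𝒜 ht hT (D := D) (Nat.succ_pos _) heD N (by omega) haj)
    obtain ⟨c, hc, -, hc'⟩ := exists_homog_comb 𝒜 𝒜 T (fun i => t i ^ d) (fun i => d * e i)
      (fun i hi => by simpa using SetLike.pow_mem_graded d (ht i hi)) haj h2
    refine ⟨c, fun i hi => hc i hi ?_, hc'⟩
    have := hdD i hi
    omega
  choose! c hc hc' using h1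
  refine ⟨fun i => ∑ j ∈ T', c j i • x j, fun i hi => ⟨?_, sum_mem fun j hj => ?_⟩, ?_⟩
  · have := hdD i hi
    omega
  · have h2 : c j i • x j ∈ ℳ ((k - e' j - d * e i) + e' j) := smul_mem 𝒜 ℳ (hc j hj i hi) (hx j hj)
    have h3 := hdD i hi
    have h4 := heE j hj
    rw [show k - e' j - d * e i + e' j = k - d * e i by omega] at h2
    exact h2
  · simp only [Finset.smul_sum]
    rw [Finset.sum_comm]
    refine Finset.sum_congr rfl fun j hj => ?_
    rw [hc' j hj, Finset.sum_smul]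
    refine Finset.sum_congr rfl fun i _ => ?_
    rw [smul_smul, mul_comm]

end Mod

end Groth.Agent.Ega2.H271.GradedFG
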