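import Groth.Agent.FormalB.TildeIso
import Groth.Agent.FormalB.TildeMain
import Groth.Agent.FormalB.TwistExt
import Groth.Agent.CohqB.FiniteType2
import Groth.Agent.VarietyB.TwistMul
import Groth.Agent.Dcoh.Restrict
import Groth.Prelude.Def_CohB1

/-!
# Quasi-coherent modules of finite type on `Proj` without Noetherian hypothesis

Let `Proj 𝒜` be covered by finitely many `D_+(f i)` with `f i` of the same positive degree `c`.
* `exists_quotient`: a quasi-coherent module of finite type is a quotient of a finite sum of twists `O(d_j)`;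
* `exists_of_epi`: such a module is `M~` for a finitely generated graded module `M`.
(Versions of `S0846`, `FormalB.TildeMain.exists_of_epi`.)
-/

set_option autoImplicit false
set_option linter.unusedSectionVars false

universe u

open CategoryTheory CategoryTheory.Limits AlgebraicGeometry TopologicalSpace Opposite TopCat

namespace Groth.Agent.Ega2.H271.ProjTilde

open Groth.Agent.FormalB.GrTildeSect Groth.Agent.FormalB.GlueHom Groth.Agent.FormalB.TwistFrac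
open Groth.Agent.FormalB.TildeHom Groth.Agent.FormalB.GradedQuot Groth.Agent.FormalB.TildeOfPres
open Groth.Agent.FormalB.TildeIso Groth.Agent.FormalB.TildeMain

variable {R A : Type u} [CommRing R] [CommRing A] [Algebra R A] {𝒜 : ℕ → Submodule R A} [GradedAlgebra 𝒜]

theorem exists_quotient {n : ℕ} {f : Fin n → A} {c : ℕ} (hc : 0 < c) (hf : ∀ i, f i ∈ 𝒜 c)
    (hcov : ∀ x : ProjectiveSpectrum 𝒜, ∃ i, f i ∉ x.asHomogeneousIdeal) (F : (Proj 𝒜).Modules)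
    (hF : Coh.IsQCoh F ∧ CohB1.IsFT F) :
    ∃ (r : ℕ) (d : Fin r → ℤ) (φ : (∐ fun j : Fin r => Twist.twist 𝒜 (d j)) ⟶ F), Epi φ := by
  classical
  have hFq := hF.1
  have hfin : ∀ i, ∃ s : Finset Γ(F, Proj.basicOpen 𝒜 (f i)), Submodule.span Γ(Proj 𝒜, Proj.basicOpen 𝒜 (f i)) (s : Set Γ(F, Proj.basicOpen 𝒜 (f i))) = ⊤ := by
    intro i
    have h1 : Module.Finite Γ(Proj 𝒜, Proj.basicOpen 𝒜 (f i)) Γ(F, Proj.basicOpen 𝒜 (f i)) :=
      @Groth.Agent.CohqB.FiniteType2.finite_sections_of_isFT _ F hF.1 hF.2 _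
        (Proj.isAffineOpen_basicOpen 𝒜 (f i) (hf i) hc)
    exact h1.1
  choose s hs using hfin
  choose N ψ t ht using fun p : (Σ i : Fin n, s i) =>
    Groth.Agent.FormalB.TwistExt.exists_hom_of_section hf hcov hc hF.1 p.1 p.2.1
  let K := Σ i : Fin n, s i
  let eK : Fin (Fintype.card K) ≃ K := (Fintype.equivFin K).symm
  refine ⟨Fintype.card K, fun j => -((N (eK j) * c : ℕ) : ℤ), Sigma.desc (fun j => ψ (eK j)), ?_⟩
  set Φ : (∐ fun j : Fin (Fintype.card K) => Twist.twist 𝒜 (-((N (eK j) * c : ℕ) : ℤ))) ⟶ F :=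
    Sigma.desc (fun j => ψ (eK j)) with hΦ
  -- every section over `D_+(f_i)` is in the image
  have hsec : ∀ (i : Fin n) (w : Γ(F, Proj.basicOpen 𝒜 (f i))), ∃ z, Φ.app _ z = w := by
    intro i w
    have hw : w ∈ Submodule.span Γ(Proj 𝒜, Proj.basicOpen 𝒜 (f i)) (s i : Set Γ(F, Proj.basicOpen 𝒜 (f i))) := by
      rw [hs i]; trivial
    induction hw using Submodule.span_induction with
    | mem w hw =>
      let p : K := ⟨i, ⟨w, hw⟩⟩
      obtain ⟨j, hj⟩ := eK.surjective p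
      have hp : ∀ q : K, eK j = q → ∃ z, Φ.app (Proj.basicOpen 𝒜 (f q.1)) z = q.2.1 := by
        rintro q rfl
        refine ⟨(Sigma.ι (fun j : Fin (Fintype.card K) => Twist.twist 𝒜 (-((N (eK j) * c : ℕ) : ℤ))) j).app _
          (t (eK j)), ?_⟩
        have h1 : Sigma.ι (fun j : Fin (Fintype.card K) => Twist.twist 𝒜 (-((N (eK j) * c : ℕ) : ℤ))) j ≫ Φ =
            ψ (eK j) := Sigma.ι_desc _ _
        rw [← ht (eK j), ← h1]
        rfl
      exact hp p hj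
    | zero => exact ⟨0, map_zero _⟩
    | add w w' _ _ h h' =>
      obtain ⟨z, rfl⟩ := h
      obtain ⟨z', rfl⟩ := h'
      exact ⟨z + z', map_add _ _ _⟩
    | smul a w _ h =>
      obtain ⟨z, rfl⟩ := h
      exact ⟨a • z, Scheme.Modules.Hom.app_smul _ _ _⟩
  constructor
  intro G g h hgh
  apply Scheme.Modules.hom_ext
  intro U
  ext y
  refine Groth.Agent.FormalB.GlueHom.eq_of_local G fun x hx => ?_
  obtain ⟨i, hi⟩ := hcov x
  have haff := Proj.isAffineOpen_basicOpen 𝒜 (f i) (hf i) hc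
  obtain ⟨b, hb, hxb⟩ := haff.exists_basicOpen_le (V := U) ⟨x, hx⟩ hi
  refine ⟨(Proj 𝒜).basicOpen b, hb, hxb, ?_⟩
  rw [← Groth.Agent.FormalB.GlueHom.app_res, ← Groth.Agent.FormalB.GlueHom.app_res]
  obtain ⟨m, w, hw⟩ := (Groth.Agent.CohqB.QC2.loc_of_isQuasicoherent F haff).exists_lift b
    (Groth.Agent.FormalB.GlueHom.res F hb y)
  have hw' : Groth.Agent.FormalB.GlueHom.res F ((Proj 𝒜).basicOpen_le b) w =
      ((Proj 𝒜).presheaf.map (homOfLE ((Proj 𝒜).basicOpen_le b)).op b) ^ m •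
        Groth.Agent.FormalB.GlueHom.res F hb y := hw
  have hu : IsUnit (((Proj 𝒜).presheaf.map (homOfLE ((Proj 𝒜).basicOpen_le b)).op b) ^ m) :=
    (RingedSpace.isUnit_res_basicOpen (Proj 𝒜).toRingedSpace b).pow m
  obtain ⟨z, rfl⟩ := hsec i w
  rw [← Groth.Agent.FormalB.GlueHom.app_res] at hw'
  have h1 : ∀ e : F ⟶ G, e.app _ (Φ.app _ (Groth.Agent.FormalB.GlueHom.res _ ((Proj 𝒜).basicOpen_le b) z)) =
      ((Proj 𝒜).presheaf.map (homOfLE ((Proj 𝒜).basicOpen_le b)).op b) ^ m •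
        e.app _ (Groth.Agent.FormalB.GlueHom.res F hb y) := by
    intro e
    rw [hw', Scheme.Modules.Hom.app_smul]
  have h2 : ∀ q, g.app ((Proj 𝒜).basicOpen b) (Φ.app _ q) = h.app _ (Φ.app _ q) := fun q =>
    congrArg (fun e => Scheme.Modules.Hom.app e ((Proj 𝒜).basicOpen b) q) hgh
  have h3 := h2 (Groth.Agent.FormalB.GlueHom.res _ ((Proj 𝒜).basicOpen_le b) z)
  rw [h1, h1] at h3
  exact hu.smul_left_cancel.mp h3

theorem exists_of_epi {n : ℕ} {f : Fin n → A} {c : ℕ} (hc : 0 < c) (hf : ∀ i, f i ∈ 𝒜 c)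
    (hcov : ∀ x : ProjectiveSpectrum 𝒜, ∃ i, f i ∉ x.asHomogeneousIdeal) {F : (Proj 𝒜).Modules}
    (hF : SheafOfModules.IsQuasicoherent (R := (Proj 𝒜).ringCatSheaf) F) {r : ℕ} (d : Fin r → ℤ)
    (φ : (∐ fun j : Fin r => Twist.twist 𝒜 (d j)) ⟶ F) (hφ : Epi φ) :
    ∃ (J : Type) (_ : Fintype J) (e : J → ℕ) (ψ : ∀ j, Twist.twist 𝒜 (-(e j : ℤ)) ⟶ F),
      Nonempty (GrTilde.tilde 𝒜 (qpart e ψ) 0 ≅ F) := by
  classical
  let N : Fin r → ℕ := fun j => (d j).natAbs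
  have hN : ∀ j, 0 ≤ (N j : ℤ) * c - d j := by
    intro j
    have h1 : d j ≤ (N j : ℤ) := Int.le_natAbs
    have h2 : (N j : ℤ) ≤ (N j : ℤ) * c := by
      have : (1 : ℤ) ≤ c := by exact_mod_cast hc
      nlinarith [Int.natCast_nonneg (N j)]
    linarith
  let e : Fin r × Fin n → ℕ := fun p => ((N p.1 : ℤ) * c - d p.1).toNat
  have he : ∀ p, -(e p : ℤ) + ((N p.1 * c : ℕ) : ℤ) = d p.1 := by
    intro p
    simp only [e]
    rw [Int.toNat_of_nonneg (hN p.1)]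
    push_cast
    ring
  let μ : ∀ p : Fin r × Fin n, Twist.twist 𝒜 (-(e p : ℤ)) ⟶ Twist.twist 𝒜 (d p.1) := fun p =>
    Groth.Agent.VarietyB.TwistMul.mulMap (⟨f p.2 ^ N p.1, mem_pow (hf p.2) (N p.1)⟩ : 𝒜 (N p.1 * c)) (he p)
  let ψ : ∀ p : Fin r × Fin n, Twist.twist 𝒜 (-(e p : ℤ)) ⟶ F := fun p =>
    μ p ≫ Sigma.ι (fun j : Fin r => Twist.twist 𝒜 (d j)) p.1 ≫ φ
  refine ⟨Fin r × Fin n, inferInstance, e, ψ, exists_iso e ψ hc hf hcov hF ?_⟩
  intro U y x hx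
  obtain ⟨V, hVU, z, hxV, hz⟩ := Groth.Agent.Dcoh.Restrict.exists_local_preimage φ U y x hx
  obtain ⟨i, hi⟩ := hcov x
  obtain ⟨t, rfl⟩ := exists_sum_coprod _ z
  have hi' : ∀ j : Fin r, V ⊓ Proj.basicOpen 𝒜 (f i) ≤ Proj.basicOpen 𝒜 (f i ^ N j) := fun j y hy =>
    pow_notMem hy.2 _
  choose t' ht' using fun j : Fin r => (Groth.Agent.VarietyB.TwistMul.mulMap_app_bijective
    (⟨f i ^ N j, mem_pow (hf i) (N j)⟩ : 𝒜 (N j * c)) (he (j, i)) (V ⊓ Proj.basicOpen 𝒜 (f i)) (hi' j)).2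
      (Groth.Agent.FormalB.GlueHom.res _ (inf_le_left : V ⊓ Proj.basicOpen 𝒜 (f i) ≤ V) (t j))
  obtain ⟨t'', ht1, ht2⟩ : ∃ t'' : ∀ p : Fin r × Fin n, Γ(Twist.twist 𝒜 (-(e p : ℤ)), V ⊓ Proj.basicOpen 𝒜 (f i)),
      (∀ j, t'' (j, i) = t' j) ∧ ∀ j l, l ≠ i → t'' (j, l) = 0 := by
    refine ⟨fun p => if h : i = p.2 then Eq.rec (motive := fun l _ =>
      Γ(Twist.twist 𝒜 (-(e (p.1, l) : ℤ)), V ⊓ Proj.basicOpen 𝒜 (f i))) (t' p.1) h else 0, fun j => ?_,
      fun j l hl => ?_⟩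
    · exact dif_pos (c := i = i) rfl
    · exact dif_neg (c := i = l) hl.symm
  refine ⟨V ⊓ Proj.basicOpen 𝒜 (f i), inf_le_left.trans hVU, t'', ⟨hxV, hi⟩, ?_⟩
  rw [Fintype.sum_prod_type]
  have h1 : Groth.Agent.FormalB.GlueHom.res F (inf_le_left.trans hVU : V ⊓ Proj.basicOpen 𝒜 (f i) ≤ U) y =
      ∑ j, (ψ (j, i)).app (V ⊓ Proj.basicOpen 𝒜 (f i)) (t' j) := by
    rw [← Groth.Agent.FormalB.GlueHom.res_res F hVU inf_le_left]
    have : Groth.Agent.FormalB.GlueHom.res F hVU y = φ.app V (∑ j, (Sigma.ι (fun j : Fin r => Twist.twist 𝒜 (d j)) j).app V (t j)) := hz.symm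
    rw [this, map_sum, Groth.Agent.FormalB.GlueHom.res_sum]
    refine Finset.sum_congr rfl fun j _ => ?_
    rw [← Groth.Agent.FormalB.GlueHom.app_res, ← Groth.Agent.FormalB.GlueHom.app_res, ← ht' j]
    rfl
  rw [h1]
  refine Finset.sum_congr rfl fun j _ => ?_
  rw [Finset.sum_eq_single i]
  · rw [ht1]
  · intro l _ hl
    rw [ht2 j l hl, map_zero]
  · intro h
    exact absurd (Finset.mem_univ _) h

end Groth.Agent.Ega2.H271.ProjTilde
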