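import Groth.Agent.Ega2.H271.GradedFG
import Groth.Agent.Ega2.H271.FinGenSpan
import Groth.Agent.FormalB.TwistFrac

/-!
# `M~` is of finite type if a tail of `M` is finitely generated

For a graded ring `A` with finitely generated irrelevant ideal and a graded module `M` some tail of which generates a
finitely generated submodule:
* `exists_finite_span`: the sections `m / f ^ l` of `M~` over `D_+(f)` lie in the span of finitely many of them;
* `isFT_tilde`: `M~` is of finite type.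
-/

set_option autoImplicit false
set_option linter.unusedSectionVars false
universe u

open CategoryTheory CategoryTheory.Limits AlgebraicGeometry TopologicalSpace Opposite TopCat
open Groth.Agent.FormalB.GrTildeSect Groth.Agent.FormalB.TwistFrac Groth.Agent.Ega2.H271.GradedFG

namespace Groth.Agent.Ega2.H271.TildeFT

variable {R A : Type u} [CommRing R] [CommRing A] [Algebra R A] {𝒜 : ℕ → Submodule R A} [GradedAlgebra 𝒜]
variable {M : Type u} [AddCommGroup M] [Module R M] [Module A M] {ℳ : ℕ → Submodule R M} [SetLike.GradedSMul 𝒜 ℳ]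
variable {d : ℕ} {f : A}

theorem pow_mem' (hf : f ∈ 𝒜 d) (l : ℕ) : f ^ l ∈ 𝒜 (l * d) := by
  simpa using SetLike.pow_mem_graded l hf

/-- The section `m / f ^ l` of `M~` over `D_+(f)`. -/
noncomputable def fsec (hf : f ∈ 𝒜 d) (l : ℕ) {m : M} (hm : m ∈ ℳ (l * d)) :
    Γ(GrTilde.tilde 𝒜 ℳ 0, Proj.basicOpen 𝒜 f) :=
  gfrac 0 (Proj.basicOpen 𝒜 f) (pow_mem' hf l) ((NV.basicOpen f).pow l) (mem_zdeg_of_eq (by simp) hm)

theorem fsec_congr (hf : f ∈ 𝒜 d) {l l' : ℕ} {m m' : M} {hm : m ∈ ℳ (l * d)} {hm' : m' ∈ ℳ (l' * d)}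
    (h : f ^ l' • m = f ^ l • m') : fsec hf l hm = fsec hf l' hm' :=
  gfrac_congr h

theorem fsec_add (hf : f ∈ 𝒜 d) (l : ℕ) {m m' : M} (hm : m ∈ ℳ (l * d)) (hm' : m' ∈ ℳ (l * d)) :
    fsec hf l (add_mem hm hm') = fsec hf l hm + fsec hf l hm' :=
  (gfrac_add 0 _ _ _ _ _).symm

theorem fsec_zero (hf : f ∈ 𝒜 d) (l : ℕ) : fsec hf l (zero_mem (ℳ (l * d))) = 0 := by
  have h := fsec_add hf l (zero_mem (ℳ (l * d))) (zero_mem (ℳ (l * d)))
  have h2 : fsec hf l (add_mem (zero_mem (ℳ (l * d))) (zero_mem (ℳ (l * d)))) =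
      fsec hf l (zero_mem (ℳ (l * d))) := fsec_congr hf (by rw [add_zero])
  rw [h2] at h
  exact left_eq_add.mp h

/-- `(a / f ^ j) • (m / f ^ l) = (a • m) / f ^ (j + l)`. -/
theorem ofrac_smul_fsec (hf : f ∈ 𝒜 d) {j l : ℕ} {a : A} (ha : a ∈ 𝒜 (j * d)) {m : M} (hm : m ∈ ℳ (l * d))
    (ham : a • m ∈ ℳ ((j + l) * d)) :
    ofrac (Proj.basicOpen 𝒜 f) ha (pow_mem' hf j) ((NV.basicOpen f).pow j) • fsec hf l hm = fsec hf (j + l) ham := by
  rw [fsec, ofrac_smul_gfrac]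
  refine gfrac_congr ?_
  rw [pow_add]

/-- The elements `m` of degree `l * d` such that the section `m / f ^ l` lies in `N`, as a module over `𝒜 0`. -/
noncomputable def P (hf : f ∈ 𝒜 d) (N : Submodule Γ(Proj 𝒜, Proj.basicOpen 𝒜 f)
    Γ(GrTilde.tilde 𝒜 ℳ 0, Proj.basicOpen 𝒜 f)) (l : ℕ) : Submodule (SetLike.GradeZero.subring 𝒜) M where
  carrier := {m | ∃ hm : m ∈ ℳ (l * d), fsec hf l hm ∈ N}
  add_mem' := by
    rintro m m' ⟨hm, h⟩ ⟨hm', h'⟩
    exact ⟨add_mem hm hm', by rw [fsec_add hf l hm hm']; exact add_mem h h'⟩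
  zero_mem' := ⟨zero_mem _, by rw [fsec_zero]; exact zero_mem _⟩
  smul_mem' := by
    rintro c m ⟨hm, h⟩
    have hc : (c : A) ∈ 𝒜 (0 * d) := by rw [zero_mul]; exact c.2
    have hcm : (c : A) • m ∈ ℳ ((0 + l) * d) := by
      have := GradedFG.smul_mem 𝒜 ℳ hc hm
      rwa [← add_mul] at this
    have hcm' : (c : A) • m ∈ ℳ (l * d) := by rwa [zero_add] at hcm
    refine ⟨hcm', ?_⟩
    have h1 := ofrac_smul_fsec hf hc hm hcm
    have h2 : fsec hf (0 + l) hcm = fsec hf l hcm' := fsec_congr hf (by rw [zero_add])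
    rw [h2] at h1
    change fsec hf l hcm' ∈ N
    rw [← h1]
    exact Submodule.smul_mem _ _ h

variable {hf : f ∈ 𝒜 d} {N : Submodule Γ(Proj 𝒜, Proj.basicOpen 𝒜 f)
    Γ(GrTilde.tilde 𝒜 ℳ 0, Proj.basicOpen 𝒜 f)}

theorem mem_P_iff {l : ℕ} {m : M} : m ∈ P hf N l ↔ ∃ hm : m ∈ ℳ (l * d), fsec hf l hm ∈ N := Iff.rfl

theorem P_mono {N' : Submodule Γ(Proj 𝒜, Proj.basicOpen 𝒜 f)
    Γ(GrTilde.tilde 𝒜 ℳ 0, Proj.basicOpen 𝒜 f)} (h : N ≤ N') (l : ℕ) : P hf N l ≤ P hf N' l := by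
  rintro m ⟨hm, h'⟩
  exact ⟨hm, h h'⟩

theorem smul_mem_P {j l : ℕ} {a : A} (ha : a ∈ 𝒜 (j * d)) {m : M} (hm : m ∈ P hf N l) :
    a • m ∈ P hf N (j + l) := by
  obtain ⟨hm, h⟩ := hm
  have ham : a • m ∈ ℳ ((j + l) * d) := by
    rw [add_mul]
    exact GradedFG.smul_mem 𝒜 ℳ ha hm
  refine ⟨ham, ?_⟩
  rw [← ofrac_smul_fsec hf ha hm ham]
  exact Submodule.smul_mem _ _ h

theorem mem_P_of_pow_smul {j l : ℕ} {m : M} (hm : m ∈ ℳ (l * d)) (h : f ^ j • m ∈ P hf N (j + l)) :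
    m ∈ P hf N l := by
  obtain ⟨h1, h2⟩ := h
  refine ⟨hm, ?_⟩
  rwa [fsec_congr hf (l := l) (l' := j + l) (hm' := h1)]
  rw [smul_smul, ← pow_add, add_comm]

variable [DirectSum.Decomposition ℳ]

/-- If `ℳ (l * d)` is finitely generated over `𝒜 0`, the sections `m / f ^ l` are in the span of finitely many. -/
theorem exists_finite_of_fg (hf : f ∈ 𝒜 d) {l : ℕ} (h : (gr 𝒜 ℳ (l * d)).FG) :
    ∃ S : Set Γ(GrTilde.tilde 𝒜 ℳ 0, Proj.basicOpen 𝒜 f), S.Finite ∧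
      ∀ m ∈ ℳ (l * d), m ∈ P hf (Submodule.span Γ(Proj 𝒜, Proj.basicOpen 𝒜 f) S) l := by
  obtain ⟨B, hB⟩ := h
  have hB' : ∀ b ∈ B, b ∈ ℳ (l * d) := fun b hb => by
    have : b ∈ gr 𝒜 ℳ (l * d) := hB ▸ Submodule.subset_span hb
    exact this
  refine ⟨Set.range fun b : B => fsec hf l (hB' b.1 b.2), Set.finite_range _, fun m hm => ?_⟩
  have hm' : m ∈ gr 𝒜 ℳ (l * d) := hm
  rw [← hB] at hm'
  refine (Submodule.span_le.mpr ?_) hm'
  intro b hb
  exact ⟨hB' b hb, Submodule.subset_span ⟨⟨b, hb⟩, rfl⟩⟩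

/-- The sections `m / f ^ l` of `M~` over `D_+(f)` lie in the span of finitely many of them. -/
theorem exists_finite_span (hd : 0 < d) (hf : f ∈ 𝒜 d) (hfg : (HomogeneousIdeal.irrelevant 𝒜).toIdeal.FG)
    (hTF : ∃ n : ℕ, (Submodule.span A (⋃ k ∈ Set.Ici n, (ℳ k : Set M))).FG) :
    ∃ S : Set Γ(GrTilde.tilde 𝒜 ℳ 0, Proj.basicOpen 𝒜 f), S.Finite ∧
      ∀ (l : ℕ), ∀ m ∈ ℳ (l * d), m ∈ P hf (Submodule.span Γ(Proj 𝒜, Proj.basicOpen 𝒜 f) S) l := by
  classical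
  -- homogeneous generators
  have hirr := HomogeneousIdeal.irrelevant_eq_span 𝒜
  obtain ⟨T, hTsub, hT⟩ := (Submodule.fg_span_iff_fg_span_finset_subset _).mp (hirr ▸ hfg)
  have hT1 : ∀ a ∈ T, ∃ i, 0 < i ∧ a ∈ 𝒜 i := by
    intro a ha
    have := hTsub ha
    simp only [Set.mem_iUnion] at this
    obtain ⟨i, hi, hai⟩ := this
    exact ⟨i, hi, hai⟩
  choose! e he ht using hT1
  have hT' : (HomogeneousIdeal.irrelevant 𝒜).toIdeal = Ideal.span (id '' (T : Set A)) := by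
    rw [Set.image_id]
    exact hirr.trans hT
  obtain ⟨n, hn⟩ := hTF
  obtain ⟨T', hTsub', hT''⟩ := (Submodule.fg_span_iff_fg_span_finset_subset _).mp hn
  have hT2 : ∀ a ∈ T', ∃ i, a ∈ ℳ i := by
    intro a ha
    have := hTsub' ha
    simp only [Set.mem_iUnion] at this
    obtain ⟨i, -, hai⟩ := this
    exact ⟨i, hai⟩
  choose! e' ht' using hT2
  have hn' : ∀ k, n ≤ k → ∀ m ∈ ℳ k, m ∈ Submodule.span A (id '' (T' : Set M)) := by
    intro k hk m hm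
    rw [Set.image_id, ← hT'']
    exact Submodule.subset_span (Set.mem_biUnion (Set.mem_Ici.mpr hk) hm)
  -- each degree
  have h1 : ∀ l : ℕ, ∃ S : Set Γ(GrTilde.tilde 𝒜 ℳ 0, Proj.basicOpen 𝒜 f), S.Finite ∧
      ∀ m ∈ ℳ (l * d), m ∈ P hf (Submodule.span Γ(Proj 𝒜, Proj.basicOpen 𝒜 f) S) l := by
    intro l
    have hle : n ≤ (n + l) * d := (Nat.le_add_right n l).trans (Nat.le_mul_of_pos_right _ hd)
    obtain ⟨S, hS, hS'⟩ := exists_finite_of_fg (ℳ := ℳ) hf (l := n + l)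
      (gr_fg_of_le_span 𝒜 ℳ T' id e' ht' (fun m hm => hn' _ hle m hm)
        (fun i _ _ => gr_ring_fg 𝒜 (T := T) (t := id) (e := e) ht he hT' _))
    refine ⟨S, hS, fun m hm => mem_P_of_pow_smul (j := n) hm (hS' _ ?_)⟩
    rw [add_mul]
    exact GradedFG.smul_mem 𝒜 ℳ (pow_mem' hf n) hm
  choose S hS hS' using h1
  obtain ⟨K, hK⟩ := exists_tail 𝒜 ℳ (T := T) (t := id) (e := e) ht hT' (T' := T') (x := id) (e' := e') ht' hn' d
  refine ⟨⋃ l ∈ Finset.range (K + 1), S l, Set.Finite.biUnion (Finset.finite_toSet _) fun l _ => hS l,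
    fun l => ?_⟩
  induction l using Nat.strong_induction_on with
  | _ l ih =>
    intro m hm
    by_cases hl : l < K + 1
    · refine P_mono (Submodule.span_mono ?_) l (hS' l m hm)
      exact Set.subset_biUnion_of_mem (u := fun l => S l) (Finset.mem_coe.mpr (Finset.mem_range.mpr hl))
    · have hl' : K ≤ l * d := by
        have := Nat.le_mul_of_pos_right l hd
        omega
      obtain ⟨c, hc, rfl⟩ := hK _ hl' m hm
      refine sum_mem fun i hi => ?_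
      obtain ⟨h1, h2⟩ := hc i hi
      have h3 : e i ≤ l := by
        rw [mul_comm d] at h1
        exact Nat.le_of_mul_le_mul_right h1 hd
      have h4 : l * d - d * e i = (l - e i) * d := by
        rw [mul_comm d, Nat.sub_mul]
      rw [h4] at h2
      have h5 := ih (l - e i) (by have := he i hi; omega) _ h2
      have h6 : (id i) ^ d ∈ 𝒜 (e i * d) := by
        rw [mul_comm]
        exact pow_mem' (ht i hi) d
      have h7 := smul_mem_P h6 h5
      rwa [Nat.add_sub_cancel' h3] at h7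

/-- If the irrelevant ideal is finitely generated and some tail of `M` is, then `M~` is of finite type. -/
theorem isFT_tilde (hfg : (HomogeneousIdeal.irrelevant 𝒜).toIdeal.FG)
    (hTF : ∃ n : ℕ, (Submodule.span A (⋃ k ∈ Set.Ici n, (ℳ k : Set M))).FG) :
    CohqB.FiniteType.IsFT (GrTilde.tilde 𝒜 ℳ 0) := by
  refine FinGenSpan.isFT_of_forall_exists_span _ fun x => ?_
  obtain ⟨d, f, hd, hf, hfx⟩ := exists_pos_notMem 𝒜 x
  obtain ⟨S, hS, hS'⟩ := exists_finite_span (ℳ := ℳ) hd hf hfg hTF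
  have : Finite S := hS
  refine ⟨Proj.basicOpen 𝒜 f, S, this, Subtype.val, hfx, fun V hV s y hy => ?_⟩
  obtain ⟨W, hW, e, g, m, hg, hWg, hm, he, hyW, rfl, hs⟩ := exists_gfrac s y hy
  refine ⟨_, hW, hyW, ?_⟩
  have hm' : m ∈ ℳ e := mem_of_mem_zdeg (by simp) hm
  have h1 : g ^ (d - 1) • m ∈ ℳ (e * d) := by
    have h2 := GradedFG.smul_mem 𝒜 ℳ (pow_mem' hg (d - 1)) hm'
    have h3 : (d - 1) * e + e = e * d := by
      obtain ⟨d, rfl⟩ : ∃ d', d = d' + 1 := ⟨d - 1, by omega⟩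
      simp only [Nat.add_sub_cancel]
      ring
    rwa [h3] at h2
  obtain ⟨h2, h3⟩ := hS' e _ h1
  have h4 := FinGenSpan.res_mem_span (GrTilde.tilde 𝒜 ℳ 0) (hW.trans hV) h3
  have hgd : g ^ d ∈ 𝒜 (e * d) := by
    rw [mul_comm]
    exact pow_mem' hg d
  have h5 : Fdesc.LocGen.res (GrTilde.tilde 𝒜 ℳ 0) hW s =
      ofrac (Proj.basicOpen 𝒜 g) (pow_mem' hf e) hgd (hWg.pow d) •
        Fdesc.LocGen.res (GrTilde.tilde 𝒜 ℳ 0) (hW.trans hV) (fsec hf e h2) := by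
    refine hs.trans ?_
    have hNV : NV (Proj.basicOpen 𝒜 g) (f ^ e) := ((NV.basicOpen f).pow e).mono (hW.trans hV)
    change _ = ofrac (Proj.basicOpen 𝒜 g) (pow_mem' hf e) hgd (hWg.pow d) •
      gfrac 0 (Proj.basicOpen 𝒜 g) (pow_mem' hf e) hNV (mem_zdeg_of_eq (by simp) h2)
    rw [ofrac_smul_gfrac]
    refine gfrac_congr ?_
    rw [smul_smul, smul_smul]
    congr 1
    obtain ⟨d, rfl⟩ : ∃ d', d = d' + 1 := ⟨d - 1, by omega⟩
    simp only [Nat.add_sub_cancel]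
    ring
  rw [h5]
  refine Submodule.smul_mem _ _ ?_
  rw [Set.image_eq_range] at h4
  exact h4

end Groth.Agent.Ega2.H271.TildeFT
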